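/-
Centralisers of central root elements with dominant root.
-/
import Cfsg.Agent.Lib.Chev.Order

set_option autoImplicit false

namespace Cfsg.Lib.Chev

open Cfsg.Lie

variable {D : ChevalleyDatum} {A : Aux} (hc : Cert D A) {F : Type*} [Field F]

/-- the certificate: `sp` is the only node not orthogonal to the dominant root `r`, `O` contains the orbit of `r`,
and `x_r` commutes with the listed root elements over a field of characteristic two -/
def rootCentOK (D : ChevalleyDatum) (A : Aux) (r sp : ℕ) (l O : List ℕ) : Bool :=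
  Nat.blt r D.nroots && A.pos r && O.contains r &&
  (allB D.rank fun i => decide (A.cA i r = if i = sp then 1 else 0) &&
    (if i = sp then decide (psiVal D A (A.w i r) < psiVal D A r) else
      Nat.beq (A.w i r) r && l.contains (negI D (D.simple i)))) &&
  (O.all fun k => Nat.blt k D.nroots && decide (psiVal D A k ≤ psiVal D A r) &&
    allB D.rank fun i => O.contains (A.w i k)) &&
  (allB D.nroots fun s => (!(A.pos s || l.contains s)) || Nat.beq s r ||
    (!(Nat.beq s (negI D r)) && (D.commTerms r s).all fun c => decide (c.2.1 % 2 = 0))) &&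
  l.all fun s => Nat.blt s D.nroots

/-- the group generated by `U` and the listed root subgroups -/
def listGroup (D : ChevalleyDatum) (F : Type*) [Field F] (l : List ℕ) : Subgroup (GL D.Idx F) :=
  D.posUnipotent F ⊔ Subgroup.closure {g | ∃ s ∈ l, ∃ c : F, (g : Matrix D.Idx D.Idx F) = D.x F s c}

theorem rootSubgroup_le_list {l : List ℕ} {s : ℕ} (hs : s ∈ l) :
    D.rootSubgroup F s ≤ listGroup D F l :=
  le_trans (Subgroup.closure_mono (by rintro g ⟨t, h⟩; exact ⟨s, hs, t, h⟩)) le_sup_right

include hc in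
theorem psi_map_sig {π : Equiv.Perm (Fin D.nroots)} (hπ : IsRootAut D A π) (i : Fin D.rank) (s : Fin D.nroots) :
    psiVal D A (π (sig hc i s)) = psiVal D A (π s) - A.cA i s * psiVal D A (π (sR hc i)) := by
  obtain ⟨M, hM⟩ := hπ.linear
  simp only [psiVal_eq_sum, Finset.mul_sum, ← Finset.sum_sub_distrib]
  refine Finset.sum_congr rfl fun j hj => ?_
  have hj' := Finset.mem_range.1 hj
  rw [hM _ j hj', hM _ j hj', hM _ j hj']
  have e : ∀ k ∈ Finset.range D.rank, M j k * A.co k (sig hc i s) =
      M j k * A.co k s - A.cA i s * (M j k * A.co k (sR hc i)) := by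
    intro k hk
    have hk' := Finset.mem_range.1 hk
    rw [sig_apply, co_w hc i.2 hk' s.2, show ((sR hc i : Fin D.nroots) : ℕ) = D.simple i from rfl,
      co_simple hc i.2 hk']
    by_cases h : k = (i : ℕ)
    · subst h; rw [if_pos rfl, if_pos rfl]; ring
    · rw [if_neg h]; simp [h]
  rw [Finset.sum_congr rfl e, Finset.sum_sub_distrib, ← Finset.mul_sum]
  ring

include hc in
theorem psi_neg_of_neg {s : Fin D.nroots} (h : A.pos s = false) : psiVal D A s < 0 := by
  have := psi_pos hc (negI_lt s.2) (by rw [pos_neg hc s.2, h]; rfl)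
  rw [psi_neg hc s.2] at this
  omega

include hc in
theorem centralizer_root (h2 : (2 : F) = 0) {r sp : ℕ} {l O : List ℕ}
    (h : rootCentOK D A r sp l O = true) {t : GL D.Idx F}
    (ht : (t : Matrix D.Idx D.Idx F) = D.x F r 1) :
    D.group F ⊓ Subgroup.centralizer {t} = listGroup D F l := by
  classical
  simp only [rootCentOK, Bool.and_eq_true, allB_iff, List.all_eq_true, Nat.blt_eq, decide_eq_true_eq,
    List.contains_iff_mem] at h
  obtain ⟨⟨⟨⟨⟨⟨hr, hpr⟩, hrO⟩, hnode⟩, hO⟩, hcomm⟩, hl⟩ := h
  have htx : t = xg D F r 1 := (eq_xg hc hr).1 ht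
  subst htx
  set T := listGroup D F l
  set C := Subgroup.centralizer ({xg D F r 1} : Set (GL D.Idx F))
  have mem_C : ∀ g, g ∈ C ↔ g * xg D F r 1 = xg D F r 1 * g := fun g => Subgroup.mem_centralizer_singleton_iff
  have even_zero : ∀ c : ℤ, c % 2 = 0 → (c : F) = 0 := by
    intro c hc2
    obtain ⟨d, rfl⟩ := Int.dvd_of_emod_eq_zero hc2
    simp [h2]
  have hxs : ∀ s, s < D.nroots → (A.pos s = true ∨ s ∈ l) → ∀ u : F, xg D F s u ∈ C := by
    intro s hs hs' u
    rw [mem_C]
    have h0 := hcomm s hs
    simp only [Bool.or_eq_true, Bool.not_eq_true', Bool.or_eq_false_iff, Bool.and_eq_true, List.all_eq_true,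
      decide_eq_true_eq, Nat.beq_eq, beq_eq_false_iff_ne, List.contains_eq_mem, decide_eq_false_iff_not] at h0
    rcases h0 with (⟨h1, h1'⟩ | rfl) | ⟨hne, hev⟩
    · exfalso; rcases hs' with h | h
      · rw [h1] at h; cases h
      · exact h1' h
    · rw [xg_add hc hr, xg_add hc hr, add_comm]
    · by_cases hsr : s = r
      · subst hsr; rw [xg_add hc hr, xg_add hc hr, add_comm]
      have hne' : s ≠ negI D r := fun e => by
        rw [e] at hne; simp at hne
      refine Units.ext ?_
      rw [Units.val_mul, Units.val_mul, coe_xg hc hs, coe_xg hc hr, comm_formula hc hr hs hsr hne']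
      suffices hw : D.wordMat F (D.commWord F r s 1 u) = 1 by rw [hw, mul_one]
      simp only [ChevalleyDatum.wordMat, ChevalleyDatum.commWord, List.map_map]
      refine List.prod_eq_one fun M hM => ?_
      obtain ⟨c, hc', rfl⟩ := List.mem_map.1 hM
      have hk := (commTerms_comb hc hr hs c hc').1
      simp only [Function.comp_apply, even_zero _ (hev c hc'), zero_mul]
      rw [← coe_xg hc hk, xg_zero hc hk, Units.val_one]
  have hTC : T ≤ C := by
    refine sup_le ?_ ((Subgroup.closure_le _).2 ?_)
    · rw [posUnipotent_eq hc]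
      refine (Subgroup.closure_le _).2 ?_
      rintro g ⟨s, u, hs, hp, -, rfl⟩
      exact hxs s hs (Or.inl hp) u
    · rintro g ⟨s, hs, u, hg⟩
      rw [(eq_xg hc (hl s hs)).1 hg]
      exact hxs s (hl s hs) (Or.inr hs) u
  have hTG : T ≤ D.group F := by
    refine sup_le (U_le_group hc) ((Subgroup.closure_le _).2 ?_)
    rintro g ⟨s, hs, u, hg⟩
    rw [(eq_xg hc (hl s hs)).1 hg]
    exact xg_mem_group hc (hl s hs) u
  have hxT : ∀ i : Fin D.rank, (i : ℕ) ≠ sp → ∀ u : F,
      xg D F (D.simple i) u ∈ T ∧ xg D F (negI D (D.simple i)) u ∈ T := by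
    intro i hi u
    have hp := simple_lt hc i.2
    have := (hnode i i.2).2
    rw [if_neg hi] at this
    simp only [Bool.and_eq_true, List.contains_iff_mem] at this
    exact ⟨Subgroup.mem_sup_left (xg_mem_U hc hp (simple_pos hc i.2) u),
      Subgroup.mem_sup_right (Subgroup.subset_closure ⟨_, this.2, u, coe_xg hc (negI_lt hp) u⟩)⟩
  have hngen : ∀ i : Fin D.rank, (i : ℕ) ≠ sp → ∀ u : F, ngen D F (D.simple i) u ∈ T := by
    intro i hi u
    exact T.mul_mem (hxT i hi u).1 (T.mul_mem (hxT i hi _).2 (hxT i hi u).1)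
  have hhg : ∀ i : Fin D.rank, (i : ℕ) ≠ sp → ∀ u : Fˣ, hg D A i u ∈ T := by
    intro i hi u
    have : hg D A i u = ngen D F (D.simple i) (u : F) * (ng D F i)⁻¹ := by
      rw [ngen_simple_eq hc i.2 u, mul_inv_cancel_right]
    rw [this]
    exact T.mul_mem (hngen i hi _) (T.inv_mem (hngen i hi 1))
  -- the stabiliser of the root
  have hstab : ∀ m : ℕ, ∀ L : List (Fin D.rank), len D A (wp hc L) ≤ m → wp hc L ⟨r, hr⟩ = ⟨r, hr⟩ →
      ∃ L' : List (Fin D.rank), wp hc L' = wp hc L ∧ wg D F L' ∈ T := by
    have horb : ∀ L : List (Fin D.rank), ∀ k : Fin D.nroots, (k : ℕ) ∈ O → ((wp hc L k : Fin D.nroots) : ℕ) ∈ O := by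
      intro L
      induction L using List.reverseRecOn with
      | nil => intro k hk; simpa using hk
      | append_singleton L i ih =>
        intro k hk
        rw [wp_append, wp_cons, wp_nil, mul_one, Equiv.Perm.mul_apply]
        refine ih _ ?_
        rw [sig_apply]
        exact (hO k hk).2 i i.2
    intro m
    induction m with
    | zero =>
      intro L hL _
      refine ⟨[], ?_, by simpa using T.one_mem⟩
      rw [wp_nil]
      exact (eq_one_of_len_eq_zero hc ((mem_Wgrp hc).2 ⟨L, rfl⟩) (by omega)).symm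
    | succ m ih =>
      intro L hL hfix
      by_cases h1 : wp hc L = 1
      · exact ⟨[], by rw [wp_nil, h1], by simpa using T.one_mem⟩
      obtain ⟨i, hi⟩ : ∃ i : Fin D.rank, A.pos (wp hc L (sR hc i)) = false := by
        obtain ⟨L', hL', hlen⟩ := exists_len_word hc L
        rcases List.eq_nil_or_concat L' with rfl | ⟨L'', i, rfl⟩
        · exact absurd (by rw [← hL', wp_nil]) h1
        refine ⟨i, ?_⟩
        rw [List.concat_eq_append, wp_append, wp_cons, wp_nil, mul_one] at hL'
        simp only [List.concat_eq_append, List.length_append, List.length_cons, List.length_nil, zero_add] at hlen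
        have hb := len_wp_le' hc L''
        cases hp : A.pos (wp hc L (sR hc i)) with
        | false => rfl
        | true =>
          exfalso
          have := len_mul_sig hc (isRootAut_wp hc L) i hp
          rw [← hL'] at this hlen
          rw [mul_assoc, sig_sig, mul_one] at this
          omega
      have hisp : (i : ℕ) ≠ sp := by
        intro e
        have hd := hnode i i.2
        rw [if_pos e, if_pos e] at hd
        have hd' := hd.2
        rw [decide_eq_true_eq] at hd'
        have key := psi_map_sig hc (isRootAut_wp hc L) i ⟨r, hr⟩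
        rw [hfix, hd.1, one_mul] at key
        have hk := horb L (sig hc i ⟨r, hr⟩) (by rw [sig_apply]; exact (hO r hrO).2 i i.2)
        have hle := (hO _ hk).1.2
        have hneg := psi_neg_of_neg hc hi
        simp only [] at key hle hneg
        omega
      have hwr : sig hc i ⟨r, hr⟩ = ⟨r, hr⟩ := by
        have hd := (hnode i i.2).2
        rw [if_neg hisp, Bool.and_eq_true, Nat.beq_eq] at hd
        exact Fin.ext hd.1
      have hlen := len_mul_sig_neg hc (isRootAut_wp hc L) i hi
      have hwL : wp hc (L ++ [i]) = wp hc L * sig hc i := by rw [wp_append, wp_cons, wp_nil, mul_one]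
      obtain ⟨L', hL', hT'⟩ := ih (L ++ [i]) (by rw [hwL]; omega) (by
        rw [hwL, Equiv.Perm.mul_apply, hwr, hfix])
      refine ⟨L' ++ [i], ?_, ?_⟩
      · rw [wp_append, wp_cons, wp_nil, mul_one, hL', hwL, mul_assoc, sig_sig, mul_one]
      · rw [wg_append, wg_cons, wg_nil, mul_one]
        exact T.mul_mem hT' (hngen i hisp 1)
  refine le_antisymm ?_ (le_inf hTG hTC)
  rintro g ⟨hgG, hgC⟩
  obtain ⟨b, hb, n, hn, π, hact, u, hu, rfl⟩ := exists_normal_form hc hgG
  obtain ⟨v, hv, h, hh, rfl⟩ := (mem_B_iff hc).1 hb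
  have huT : u ∈ T := Subgroup.mem_sup_left (Uw_le_U hc hu)
  have hvT : v ∈ T := Subgroup.mem_sup_left hv
  have hhn : h * n ∈ C := by
    have : h * n = v⁻¹ * (v * h * n * u) * u⁻¹ := by group
    rw [this]
    exact C.mul_mem (C.mul_mem (C.inv_mem (hTC hvT)) hgC) (C.inv_mem (hTC huT))
  have hhn' : h * n ∈ D.monomialSubgroup F := (D.monomialSubgroup F).mul_mem (H_le_N hh) hn
  obtain ⟨L, h₁, hh₁, e⟩ := (mem_N_iff hc).1 hhn'
  have hact' := acts_hwg (F := F) hc hh₁ L
  rw [← e] at hact'
  obtain ⟨-, c, -, hcx⟩ := hact'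
  have hfix : wp hc L ⟨r, hr⟩ = ⟨r, hr⟩ := by
    have h1 := hcx ⟨r, hr⟩ 1
    rw [(mem_C _).1 hhn, mul_inv_cancel_right] at h1
    exact Fin.ext (xg_root_unique hc hr (wp hc L ⟨r, hr⟩).2 one_ne_zero h1).symm
  obtain ⟨L', hL', hT'⟩ := hstab _ L le_rfl hfix
  have hk : h * n * (wg D F L')⁻¹ ∈ D.diagonalSubgroup F := by
    refine mem_H_of_acts_one hc ((D.monomialSubgroup F).mul_mem hhn'
      ((D.monomialSubgroup F).inv_mem (wg_mem_N hc L'))) ?_
    obtain ⟨ρ, hρ⟩ := exists_acts hc ((D.monomialSubgroup F).inv_mem (wg_mem_N (F := F) hc L'))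
    have h1 := (acts_wg (F := F) hc L').mul hρ
    rw [mul_inv_cancel, hL'] at h1
    have h2' := (show Acts D A (h * n) (wp hc L) from e ▸ acts_hwg hc hh₁ L).mul hρ
    rwa [show wp hc L * ρ = 1 from h1.unique hc (acts_one hc)] at h2'
  set k := h * n * (wg D F L')⁻¹ with hkdef
  have hkC : k ∈ C := C.mul_mem hhn (C.inv_mem (hTC hT'))
  have hkT : k ∈ T := by
    have hk' := hk
    rw [← range_torusFin hc] at hk'
    obtain ⟨cv, hcv⟩ := hk'
    have e1 : k * xg D F r 1 * k⁻¹ = xg D F r 1 := by rw [(mem_C _).1 hkC, mul_inv_cancel_right]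
    have hval : ∀ i : Fin D.rank, (i : ℕ) = sp → cv i = 1 := by
      intro i hi
      obtain ⟨f, hf, ef⟩ := H_diagonal hc hk
      rw [ef, dg_conj_x hc hr hf] at e1
      have hfr : f r = 1 := Units.ext (by simpa using xg_injective hc hr e1)
      have := dg_eq_iff.1 (hcv.trans ef) r hr
      rw [hfr, torusVal, Finset.prod_range, Finset.prod_eq_single i] at this
      · rw [(hnode i i.2).1, if_pos hi, zpow_one] at this
        simpa using this
      · intro j _ hj
        rw [(hnode j j.2).1, if_neg (fun e => hj (Fin.ext (e.trans hi.symm))), zpow_zero]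
      · intro hh; exact absurd (Finset.mem_univ _) hh
    rw [← hcv]
    have hdec : cv = ∏ i : Fin D.rank, Pi.mulSingle i (cv i) := by
      funext j; simp [Finset.prod_apply, Pi.mulSingle_apply]
    show cv ∈ T.comap (torusFin D A F)
    rw [hdec]
    refine Subgroup.prod_mem _ ?_
    intro i _
    rw [Subgroup.mem_comap]
    by_cases hi : (i : ℕ) = sp
    · rw [hval i hi, Pi.mulSingle_one, map_one]; exact T.one_mem
    · have : torusFin D A F (Pi.mulSingle i (cv i)) = hg D A i (cv i) := by
        refine dg_eq_iff.2 fun s _ => ?_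
        rw [torusVal, Finset.prod_range, Finset.prod_eq_single i]
        · simp
        · intro j _ hj; simp [Pi.mulSingle_apply, hj]
        · intro hh; exact absurd (Finset.mem_univ _) hh
      rw [this]; exact hhg i hi _
  have : v * h * n * u = v * (k * wg D F L') * u := by rw [hkdef]; group
  rw [this]
  exact T.mul_mem (T.mul_mem hvT (T.mul_mem hkT hT')) huT

end Cfsg.Lib.Chev
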