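/-
Pairs of conjugates of a long root subgroup.
-/
import Cfsg.Agent.Lib.Chev.Order
import Cfsg.Agent.Lib.Chev.FieldFix

set_option autoImplicit false

namespace Cfsg.Lib.Chev

open Cfsg.Lie

variable {D : ChevalleyDatum} {A : Aux} (hc : Cert D A) {F : Type*} [Field F]

/-- greedy search for an element of the Weyl group making both roots positive -/
def bothPos (D : ChevalleyDatum) (A : Aux) : ℕ → ℕ → ℕ → Bool
  | 0, h, k => A.pos h && A.pos k
  | n + 1, h, k => (A.pos h && A.pos k) ||
    match (List.range D.rank).find? fun i => decide (A.cA i k < 0) && !(Nat.beq h (D.simple i)) with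
    | some i => bothPos D A n (A.w i h) (A.w i k)
    | none => false

/-- the certificate for the root `h` -/
def pairOK (D : ChevalleyDatum) (A : Aux) (h : ℕ) : Bool :=
  Nat.blt h D.nroots && A.pos h &&
  allB D.nroots fun k => (Nat.beq k (negI D h) || bothPos D A 70 h k) &&
    (!(A.pos k) || Nat.beq k h || (!(Nat.beq k (negI D h)) && (D.commTerms h k).isEmpty))

include hc in
theorem bothPos_spec : ∀ (n : ℕ) (h k : Fin D.nroots), bothPos D A n h k = true →
    ∃ L : List (Fin D.rank), A.pos (wp hc L h) = true ∧ A.pos (wp hc L k) = true := by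
  intro n
  induction n with
  | zero =>
    intro h k e
    simp only [bothPos, Bool.and_eq_true] at e
    exact ⟨[], by simpa using e.1, by simpa using e.2⟩
  | succ n ih =>
    intro h k e
    rw [bothPos, Bool.or_eq_true] at e
    rcases e with e | e
    · rw [Bool.and_eq_true] at e
      exact ⟨[], by simpa using e.1, by simpa using e.2⟩
    · split at e
      · rename_i i hi
        have him := List.mem_range.1 (List.mem_of_find?_eq_some hi)
        obtain ⟨L, h1, h2⟩ := ih (sig hc ⟨i, him⟩ h) (sig hc ⟨i, him⟩ k) e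
        refine ⟨L ++ [⟨i, him⟩], ?_, ?_⟩
        · rwa [wp_append, wp_cons, wp_nil, mul_one, Equiv.Perm.mul_apply]
        · rwa [wp_append, wp_cons, wp_nil, mul_one, Equiv.Perm.mul_apply]
      · cases e

include hc in
theorem rootSubgroup_le {r : ℕ} (hr : r < D.nroots) {K : Subgroup (GL D.Idx F)}
    (h : ∀ t, xg D F r t ∈ K) : D.rootSubgroup F r ≤ K := by
  refine (Subgroup.closure_le _).2 ?_
  rintro g ⟨t, hg⟩
  rw [(eq_xg hc hr).1 hg]; exact h t

include hc in
theorem xg_mem_rootSubgroup {r : ℕ} (hr : r < D.nroots) (t : F) : xg D F r t ∈ D.rootSubgroup F r :=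
  Subgroup.subset_closure ⟨t, coe_xg hc hr t⟩

include hc in
theorem map_conj_rootSubgroup {g : GL D.Idx F} {π : Equiv.Perm (Fin D.nroots)} (h : Acts D A g π)
    (r : Fin D.nroots) :
    (D.rootSubgroup F r).map (MulAut.conj g).toMonoidHom = D.rootSubgroup F (π r) := by
  obtain ⟨-, c, -, hcx⟩ := h
  refine le_antisymm ?_ (rootSubgroup_le hc (π r).2 fun t => ?_)
  · rw [Subgroup.map_le_iff_le_comap]
    refine rootSubgroup_le hc r.2 fun t => ?_
    rw [Subgroup.mem_comap]
    show g * xg D F r t * g⁻¹ ∈ _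
    rw [hcx]
    exact xg_mem_rootSubgroup hc (π r).2 _
  · refine ⟨xg D F r ((c r)⁻¹.val * t), xg_mem_rootSubgroup hc r.2 _, ?_⟩
    show g * xg D F r _ * g⁻¹ = _
    rw [hcx, ← mul_assoc, ← Units.val_mul, mul_inv_cancel, Units.val_one, one_mul]

include hc in
theorem map_conj_map (a b : GL D.Idx F) (K : Subgroup (GL D.Idx F)) :
    (K.map (MulAut.conj b).toMonoidHom).map (MulAut.conj a).toMonoidHom =
      K.map (MulAut.conj (a * b)).toMonoidHom := by
  rw [Subgroup.map_map]
  congr 1
  ext x
  simp [MulAut.conj_apply, mul_assoc]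

include hc in
/-- two conjugates of the subgroup of a root `h` with `X_h` central in `U` -/
theorem root_pair [Fintype F] {h : ℕ} (hok : pairOK D A h = true) (p : ℕ) [CharP F p] [Fact p.Prime]
    {g : GL D.Idx F} (hg : g ∈ D.group F) :
    IsPGroup p ↥(D.rootSubgroup F h ⊔ (D.rootSubgroup F h).map (MulAut.conj g).toMonoidHom) ∨
    ∃ x ∈ D.group F, (D.rootSubgroup F h ⊔ (D.rootSubgroup F h).map (MulAut.conj g).toMonoidHom).map
      (MulAut.conj x).toMonoidHom = D.rootSubgroup F h ⊔ D.rootSubgroup F (negI D h) := by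
  classical
  simp only [pairOK, Bool.and_eq_true, allB_iff, Nat.blt_eq] at hok
  obtain ⟨⟨hh, hph⟩, hall⟩ := hok
  set X := D.rootSubgroup F h
  have hU : ∀ u ∈ D.posUnipotent F, ∀ t, Commute u (xg D F h t) := by
    intro u hu t
    have : D.posUnipotent F ≤ Subgroup.centralizer {xg D F h t} := by
      rw [posUnipotent_eq hc]
      refine (Subgroup.closure_le _).2 ?_
      rintro x ⟨s, v, hs, hp, -, rfl⟩
      rw [SetLike.mem_coe, Subgroup.mem_centralizer_singleton_iff]
      have h0 := (hall s hs).2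
      simp only [hp, Bool.not_true, Bool.false_or, Bool.or_eq_true, Bool.and_eq_true, Bool.not_eq_true',
        Nat.beq_eq, List.isEmpty_iff] at h0
      rcases h0 with rfl | ⟨hne, he⟩
      · rw [xg_add hc hh, xg_add hc hh, add_comm]
      · by_cases hsh : s = h
        · subst hsh; rw [xg_add hc hh, xg_add hc hh, add_comm]
        have hne' : s ≠ negI D h := fun e => by rw [e] at hne; simp at hne
        refine Units.ext ?_
        rw [Units.val_mul, Units.val_mul, coe_xg hc hs, coe_xg hc hh, comm_formula hc hh hs hsh hne']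
        simp [ChevalleyDatum.wordMat, ChevalleyDatum.commWord, he]
    exact (Subgroup.mem_centralizer_singleton_iff.1 (this hu))
  have hfixU : ∀ u ∈ D.posUnipotent F, X.map (MulAut.conj u).toMonoidHom = X := by
    intro u hu
    have : ∀ w ∈ D.posUnipotent F, X.map (MulAut.conj w).toMonoidHom ≤ X := by
      intro w hw
      rw [Subgroup.map_le_iff_le_comap]
      refine rootSubgroup_le hc hh fun t => ?_
      rw [Subgroup.mem_comap]
      show w * xg D F h t * w⁻¹ ∈ _
      rw [(hU w hw t).eq, mul_inv_cancel_right]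
      exact xg_mem_rootSubgroup hc hh t
    refine le_antisymm (this u hu) fun y hy => ?_
    refine ⟨u⁻¹ * y * u, ?_, by simp [MulAut.conj_apply, mul_assoc]⟩
    have := this u⁻¹ ((D.posUnipotent F).inv_mem hu) ⟨y, hy, rfl⟩
    simpa [MulAut.conj_apply] using this
  have hfixB : ∀ b ∈ D.borelSubgroup F, X.map (MulAut.conj b).toMonoidHom = X := by
    intro b hb
    obtain ⟨u, hu, k, hk, rfl⟩ := (mem_B_iff hc).1 hb
    rw [← map_conj_map hc, show X = D.rootSubgroup F ((⟨h, hh⟩ : Fin D.nroots) : ℕ) from rfl,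
      map_conj_rootSubgroup hc (acts_H hc hk), Equiv.Perm.one_apply]
    exact hfixU u hu
  obtain ⟨b, hb, n, hn, π, hact, u, hu, rfl⟩ := exists_normal_form hc hg
  set k := π ⟨h, hh⟩
  have hsup : X ⊔ X.map (MulAut.conj (b * n * u)).toMonoidHom =
      (X ⊔ D.rootSubgroup F k).map (MulAut.conj b).toMonoidHom := by
    rw [Subgroup.map_sup, hfixB b hb, ← map_conj_rootSubgroup hc hact, map_conj_map hc,
      ← map_conj_map hc (b * n) u, hfixU u (Uw_le_U hc hu)]
  rw [hsup]
  have hbG := B_le_group hc hb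
  by_cases hk : (k : ℕ) = negI D h
  · right
    refine ⟨b⁻¹, (D.group F).inv_mem hbG, ?_⟩
    rw [map_conj_map hc, inv_mul_cancel, hk]
    ext x; simp [MulAut.conj_apply]
  · left
    have h0 := (hall k k.2).1
    rw [Bool.or_eq_true, Nat.beq_eq] at h0
    obtain ⟨L, hL1, hL2⟩ := bothPos_spec hc _ ⟨h, hh⟩ k (h0.resolve_left hk)
    have hnL := wg_mem_N (F := F) hc L
    have hle : (X ⊔ D.rootSubgroup F k).map (MulAut.conj (wg D F L)).toMonoidHom ≤ D.posUnipotent F := by
      rw [Subgroup.map_sup, show X = D.rootSubgroup F ((⟨h, hh⟩ : Fin D.nroots) : ℕ) from rfl,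
        map_conj_rootSubgroup hc (acts_wg hc L), map_conj_rootSubgroup hc (acts_wg hc L)]
      exact sup_le (rootSubgroup_le hc (wp hc L ⟨h, hh⟩).2 fun t => xg_mem_U hc (wp hc L ⟨h, hh⟩).2 hL1 t)
        (rootSubgroup_le hc (wp hc L k).2 fun t => xg_mem_U hc (wp hc L k).2 hL2 t)
    have hUp : IsPGroup p ↥(D.posUnipotent F) := by
      obtain ⟨n', -, hn'⟩ := FiniteField.card F p
      refine IsPGroup.of_card (n := n' * (D.nroots / 2)) ?_
      rw [posUnipotent_eq hc, card_UG hc (fun _ h => h) (combClosed_pos hc), card_pos hc,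
        Nat.card_eq_fintype_card, hn', ← pow_mul]
    have h1 := hUp.to_le hle
    have h2 : IsPGroup p ↥(X ⊔ D.rootSubgroup F k) :=
      h1.of_equiv ((X ⊔ D.rootSubgroup F k).equivMapOfInjective _ (MulEquiv.injective (MulAut.conj (wg D F L)))).symm
    exact h2.map _

end Cfsg.Lib.Chev
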