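/-
Centraliser and normaliser of a subgroup over a fixed subfield.
-/
import Cfsg.Agent.Lib.Chev.FieldFix

set_option autoImplicit false

namespace Cfsg.Lib.Chev

open Cfsg.Lie

variable {D : ChevalleyDatum} {A : Aux} (hc : Cert D A) {F : Type*} [Field F]

include hc in
theorem mem_B_of_commute_simple {g : GL D.Idx F} (hg : g ∈ D.group F)
    (h : ∀ i : Fin D.rank, ∃ c : F, c ≠ 0 ∧ Commute g (xg D F (D.simple i) c)) :
    g ∈ D.borelSubgroup F := by
  obtain ⟨b, hb, L, u, hu, rfl⟩ := exists_word_form hc hg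
  by_cases h1 : wp hc L = 1
  · have hn : wg D F L ∈ D.diagonalSubgroup F :=
      mem_H_of_acts_one hc (wg_mem_N hc L) (h1 ▸ acts_wg hc L)
    exact (D.borelSubgroup F).mul_mem ((D.borelSubgroup F).mul_mem hb (H_le_B hn)) (U_le_B (Uw_le_U hc hu))
  exfalso
  obtain ⟨i, hi⟩ : ∃ i : Fin D.rank, A.pos (wp hc L (sR hc i)) = false := by
    obtain ⟨L', hL', hlen⟩ := exists_len_word hc L
    rcases List.eq_nil_or_concat L' with rfl | ⟨L'', i, rfl⟩
    · exact absurd (by rw [← hL', wp_nil]) h1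
    refine ⟨i, ?_⟩
    rw [List.concat_eq_append, wp_append, wp_cons, wp_nil, mul_one] at hL'
    simp only [List.concat_eq_append, List.length_append, List.length_cons, List.length_nil, zero_add] at hlen
    have hb := len_wp_le' hc L''
    cases hp : A.pos (wp hc L (sR hc i)) with
    | false => rfl
    | true =>
      exfalso
      have := len_mul_sig hc (isRootAut_wp hc L) i hp
      rw [← hL'] at this hlen
      rw [mul_assoc, sig_sig, mul_one] at this
      omega
  obtain ⟨c, hc0, hcomm⟩ := h i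
  have hp := simple_lt hc i.2
  set x := xg D F (D.simple i) c
  have hxw : x ∈ Uw D A F (wp hc L) := xg_mem_Uw (sR hc i) (simple_pos hc i.2) hi c
  have hxB : x ∈ D.borelSubgroup F := U_le_B (xg_mem_U hc hp (simple_pos hc i.2) c)
  have e : b * wg D F L * (u * x) = x * b * wg D F L * u := by
    rw [← mul_assoc, hcomm.eq]; group
  obtain ⟨h2, -⟩ := normal_form_unique hc hb ((D.borelSubgroup F).mul_mem hxB hb) (acts_wg hc L)
    ((Uw D A F (wp hc L)).mul_mem hu hxw) hu e
  have : x = 1 := by simpa using h2.symm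
  exact hc0 ((xg_eq_one_iff hc hp c).1 this)

include hc in
/-- an element centralising the root elements with parameter one is trivial -/
theorem eq_one_of_commute_roots {g : GL D.Idx F} (hg : g ∈ D.group F)
    (h : ∀ s < D.nroots, Commute g (xg D F s 1)) : g = 1 := by
  have hgB := mem_B_of_commute_simple hc hg fun i => ⟨1, one_ne_zero, h _ (simple_lt hc i.2)⟩
  obtain ⟨L, hL⟩ := exists_longest hc
  set n := wg D F L
  obtain ⟨-, c, -, hcx⟩ := acts_wg (F := F) hc L
  have hnG : n ∈ D.group F := N_le_group hc (wg_mem_N hc L)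
  have hgB' : n * g * n⁻¹ ∈ D.borelSubgroup F := by
    refine mem_B_of_commute_simple hc
      ((D.group F).mul_mem ((D.group F).mul_mem hnG hg) ((D.group F).inv_mem hnG)) fun i => ?_
    set s := (wp hc L)⁻¹ (sR hc i)
    have hs : wp hc L s = sR hc i := (wp hc L).apply_symm_apply _
    refine ⟨(c s : F), Units.ne_zero _, ?_⟩
    have h1 := hcx s 1
    rw [hs, mul_one] at h1
    rw [show D.simple i = ((sR hc i : Fin D.nroots) : ℕ) from rfl, ← h1]
    exact (h s s.2).map (MulAut.conj n).toMonoidHom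
  obtain ⟨v, hv, k, hk, rfl⟩ := (mem_B_iff hc).1 hgB
  have hnv : n * v * n⁻¹ ∈ D.negUnipotent F := by
    rw [posUnipotent_eq hc] at hv
    clear hgB hgB' hg h
    induction hv using Subgroup.closure_induction with
    | mem x hx =>
      obtain ⟨r, t, hr, hp, -, rfl⟩ := hx
      rw [hcx ⟨r, hr⟩]
      exact xg_mem_V hc (wp hc L ⟨r, hr⟩).2 (by rw [hL]; simp [hp]) _
    | one => simp
    | mul x y _ _ hx hy =>
      rw [show n * (x * y) * n⁻¹ = n * x * n⁻¹ * (n * y * n⁻¹) by group]
      exact (D.negUnipotent F).mul_mem hx hy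
    | inv x _ hx =>
      rw [show n * x⁻¹ * n⁻¹ = (n * x * n⁻¹)⁻¹ by group]
      exact (D.negUnipotent F).inv_mem hx
  have hnk := N_normalizes_H hc (wg_mem_N hc L) hk
  have hmem : n * (v * k) * n⁻¹ ∈ D.diagonalSubgroup F := by
    rw [← B_inf_VH hc]
    refine ⟨hgB', ?_⟩
    rw [show n * (v * k) * n⁻¹ = n * v * n⁻¹ * (n * k * n⁻¹) by group]
    exact Subgroup.mul_mem _ (Subgroup.mem_sup_left hnv) (Subgroup.mem_sup_right hnk)
  have hgH : v * k ∈ D.diagonalSubgroup F := by
    have := N_normalizes_H hc ((D.monomialSubgroup F).inv_mem (wg_mem_N hc L)) hmem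
    rwa [show n⁻¹ * (n * (v * k) * n⁻¹) * n⁻¹⁻¹ = v * k by group] at this
  obtain ⟨f, hf, e⟩ := H_diagonal hc hgH
  rw [e, ← dg_one]
  refine dg_eq_iff.2 fun s hs => ?_
  have h1 : dg D f * xg D F s 1 * (dg D f)⁻¹ = xg D F s 1 := by
    rw [← e, (h s hs).eq, mul_inv_cancel_right]
  rw [dg_conj_x hc hs hf] at h1
  exact Units.ext (by simpa using xg_injective hc hs h1)

include hc in
/-- a subgroup between the generated group over the fixed field and the fixed points is normalised by the fixed points -/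
theorem fixed_normalizes (σ : F ≃+* F) {K : Subgroup (GL D.Idx F)} (hKG : K ≤ D.group F)
    (hK : ∀ s < D.nroots, ∀ t : F, σ t = t → xg D F s t ∈ K)
    (hKfix : ∀ k ∈ K, emap D (σ : F →+* F) k = k)
    {g : GL D.Idx F} (hg : g ∈ D.group F) (hfix : emap D (σ : F →+* F) g = g) :
    g ∈ Subgroup.normalizer (K : Set (GL D.Idx F)) := by
  classical
  let L : Subgroup (GL D.Idx F) :=
    Subgroup.closure {x | ∃ (s : ℕ) (t : F), s < D.nroots ∧ σ t = t ∧ x = xg D F s t}
  have hLK : L ≤ K := (Subgroup.closure_le _).2 (by rintro x ⟨s, t, hs, ht, rfl⟩; exact hK s hs t ht)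
  have hUL : ∀ u ∈ D.posUnipotent F, emap D (σ : F →+* F) u = u → u ∈ L := by
    intro u hu hfix'
    rw [posUnipotent_eq hc] at hu
    obtain ⟨t, rfl⟩ := exists_uprod hc (fun r h => h) (combClosed_pos hc) D.nroots 0 (zero_add _) u hu
    rw [emap_uprod hc _ t _ _ (zero_add _)] at hfix'
    have hσt := uprod_injective hc (fun r h => h) D.nroots 0 (zero_add _) _ _ hfix'
    have key : ∀ k c, c + k = D.nroots → uprod D (fun r => A.pos r = true) t c k ∈ L := by
      intro k
      induction k with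
      | zero => intro c _; exact L.one_mem
      | succ k ih =>
        intro c h
        rw [uprod]
        refine L.mul_mem ?_ (ih (c + 1) (by omega))
        split
        · rename_i hP
          exact Subgroup.subset_closure ⟨c, t c, by omega, hσt c hP (Nat.zero_le _) (by omega), rfl⟩
        · exact L.one_mem
    exact key _ _ (zero_add _)
  have hngL : ∀ i : Fin D.rank, ng D F i ∈ L := by
    intro i
    have hp := simple_lt hc i.2
    have h1 : xg D F (D.simple i) (1 : F) ∈ L :=
      Subgroup.subset_closure ⟨_, 1, hp, map_one σ, rfl⟩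
    have h2 : xg D F (negI D (D.simple i)) (-1⁻¹ : F) ∈ L :=
      Subgroup.subset_closure ⟨_, _, negI_lt hp, by simp, rfl⟩
    exact L.mul_mem h1 (L.mul_mem h2 h1)
  have hwgL : ∀ W : List (Fin D.rank), wg D F W ∈ L := by
    intro W
    induction W with
    | nil => simp
    | cons i W ih => rw [wg_cons]; exact L.mul_mem (hngL i) ih
  -- decomposition
  have dec : ∀ g ∈ D.group F, emap D (σ : F →+* F) g = g →
      ∃ l ∈ L, ∃ h ∈ D.diagonalSubgroup F, emap D (σ : F →+* F) h = h ∧ g = l * h := by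
    intro g hg hfix
    obtain ⟨b, hb, W, u, hu, rfl⟩ := exists_word_form hc hg
    rw [map_mul, map_mul, emap_wg hc] at hfix
    obtain ⟨hb', hu'⟩ := normal_form_unique hc (emap_mem_B hc (σ : F →+* F) hb) hb (acts_wg hc W)
      (show emap D (σ : F →+* F) u ∈ Uw D A F (wp hc W) from emap_mem_UG hc _ hu) hu hfix
    obtain ⟨v, hv, h, hh, rfl⟩ := (mem_B_iff hc).1 hb
    rw [map_mul] at hb'
    have hv' : emap D (σ : F →+* F) v ∈ D.posUnipotent F := by
      rw [posUnipotent_eq hc] at hv ⊢; exact emap_mem_UG hc _ hv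
    have hm : v⁻¹ * emap D (σ : F →+* F) v ∈ D.posUnipotent F ⊓ D.diagonalSubgroup F := by
      refine ⟨(D.posUnipotent F).mul_mem ((D.posUnipotent F).inv_mem hv) hv', ?_⟩
      have : v⁻¹ * emap D (σ : F →+* F) v = h * (emap D (σ : F →+* F) h)⁻¹ := by
        rw [eq_mul_inv_iff_mul_eq, mul_assoc, hb']; group
      rw [this]
      exact (D.diagonalSubgroup F).mul_mem hh ((D.diagonalSubgroup F).inv_mem (emap_mem_H hc _ hh))
    rw [U_inf_H hc, Subgroup.mem_bot, inv_mul_eq_one] at hm
    rw [← hm] at hb'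
    have hhfix := mul_left_cancel hb'
    set h' := (wg D F W)⁻¹ * h * wg D F W
    have hh' : h' ∈ D.diagonalSubgroup F := by
      have := N_normalizes_H hc ((D.monomialSubgroup F).inv_mem (wg_mem_N hc W)) hh
      rwa [inv_inv] at this
    have hh'fix : emap D (σ : F →+* F) h' = h' := by
      simp only [h', map_mul, map_inv, emap_wg hc, hhfix]
    have hu2 : h' * u * h'⁻¹ ∈ L := by
      refine hUL _ (H_normalizes_U hc hh' (Uw_le_U hc hu)) ?_
      rw [map_mul, map_mul, map_inv, hh'fix, hu']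
    refine ⟨v * wg D F W * (h' * u * h'⁻¹), L.mul_mem (L.mul_mem (hUL v hv hm.symm) (hwgL W)) hu2,
      h', hh', hh'fix, ?_⟩
    simp only [h']; group
  have hconjL : ∀ h ∈ D.diagonalSubgroup F, emap D (σ : F →+* F) h = h → ∀ l ∈ L, h * l * h⁻¹ ∈ L := by
    intro h hh hhfix l hl
    induction hl using Subgroup.closure_induction with
    | mem x hx =>
      obtain ⟨s, t, hs, ht, rfl⟩ := hx
      obtain ⟨f, hf, rfl⟩ := H_diagonal hc hh
      rw [dg_conj_x hc hs hf]
      refine Subgroup.subset_closure ⟨s, _, hs, ?_, rfl⟩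
      have h3 : emap D (σ : F →+* F) (dg D f * xg D F s t * (dg D f)⁻¹) = dg D f * xg D F s t * (dg D f)⁻¹ := by
        rw [map_mul, map_mul, map_inv, hhfix, map_xg hc _ hs]
        rw [show (σ : F →+* F) t = σ t from rfl, ht]
      rw [dg_conj_x hc hs hf, map_xg hc _ hs] at h3
      exact xg_injective hc hs h3
    | one => simp
    | mul x y _ _ hx hy =>
      rw [show h * (x * y) * h⁻¹ = h * x * h⁻¹ * (h * y * h⁻¹) by group]
      exact L.mul_mem hx hy
    | inv x _ hx =>
      rw [show h * x⁻¹ * h⁻¹ = (h * x * h⁻¹)⁻¹ by group]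
      exact L.inv_mem hx
  have conj : ∀ g ∈ D.group F, emap D (σ : F →+* F) g = g → ∀ k ∈ K, g * k * g⁻¹ ∈ K := by
    intro g hg hfix k hk
    obtain ⟨l, hl, h, hh, hhfix, rfl⟩ := dec g hg hfix
    obtain ⟨l', hl', h', hh', -, rfl⟩ := dec k (hKG hk) (hKfix k hk)
    have hh'K : h' ∈ K := by
      have := K.mul_mem (K.inv_mem (hLK hl')) hk
      rwa [inv_mul_cancel_left] at this
    obtain ⟨f, -, e1⟩ := H_diagonal hc hh
    obtain ⟨f', -, e2⟩ := H_diagonal hc hh'
    have hcomm : h * h' = h' * h := by rw [e1, e2, dg_mul, dg_mul, mul_comm]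
    rw [show l * h * (l' * h') * (l * h)⁻¹ = l * (h * l' * h⁻¹) * (h * h' * h⁻¹) * l⁻¹ by group, hcomm,
      mul_inv_cancel_right]
    exact K.mul_mem (K.mul_mem (K.mul_mem (hLK hl) (hLK (hconjL h hh hhfix l' hl'))) hh'K) (K.inv_mem (hLK hl))
  rw [Subgroup.mem_normalizer_iff]
  intro k
  refine ⟨fun hk => conj g hg hfix k hk, fun hk => ?_⟩
  have := conj g⁻¹ ((D.group F).inv_mem hg) (by rw [map_inv, hfix]) _ hk
  rwa [show g⁻¹ * (g * k * g⁻¹) * g⁻¹⁻¹ = k by group] at this

end Cfsg.Lib.Chev
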